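import Mathlib
import Cfsg.Agent.Perm.Modules

/-!
# Fixed points of the normalizer of a TI Sylow subgroup in small degree

If `P` is a trivial intersection Sylow `p`-subgroup and `W` a complex representation of dimension
at most `|P|` with a non-zero fixed vector, the vectors fixed by the normalizer of `P` are fixed
by the whole group.
-/

set_option autoImplicit false
set_option linter.style.haveILetI false

noncomputable section

namespace Cfsg.Agent.Char8TI

open Subgroup Module
open scoped Pointwise Classical

/-- A valuation subring of the complex numbers in which `p` is not a unit. -/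
theorem exists_valuationSubring (p : ℕ) (hp : p.Prime) :
    ∃ O : ValuationSubring ℂ, (p : ℂ) ∈ O.nonunits := by
  let A : Subring ℂ := (Int.castRingHom ℂ).range
  let pa : A := ⟨(p : ℂ), (p : ℤ), by simp⟩
  have hI : Ideal.span {pa} ≠ ⊤ := by
    intro h
    obtain ⟨⟨_, m, rfl⟩, hm⟩ := Ideal.mem_span_singleton'.1 (h.symm ▸ Submodule.mem_top (x := (1 : A)))
    have hm' : ((m * p : ℤ) : ℂ) = ((1 : ℤ) : ℂ) := by
      push_cast
      exact congrArg Subtype.val hm
    have h1 : (p : ℤ) ∣ 1 := ⟨m, by rw [mul_comm]; exact (Int.cast_injective hm').symm⟩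
    exact hp.one_lt.ne' (by exact_mod_cast Int.eq_one_of_dvd_one (by positivity) h1)
  obtain ⟨O, -, hO⟩ := Ideal.image_subset_nonunits_valuationSubring _ hI
  exact ⟨O, hO ⟨pa, Ideal.subset_span rfl, rfl⟩⟩

variable {G W : Type*} [Group G] [Finite G] [AddCommGroup W] [Module ℂ W] [FiniteDimensional ℂ W]
  (ρ : Representation ℂ G W)

/-- A basis in which every operator of the group has integral matrix coefficients. -/
theorem exists_integral_basis (O : ValuationSubring ℂ) :
    ∃ e : Basis (Fin (finrank ℂ W)) ℂ W, ∀ g i j, e.repr (ρ g (e j)) i ∈ O := by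
  let d := finrank ℂ W
  let b : Basis (Fin d) ℂ W := Module.finBasis ℂ W
  haveI := Fintype.ofFinite G
  let u : G × Fin d → W := fun t => ρ t.1 (b t.2)
  let f : (Fin d → G × Fin d) → O.ValueGroup := fun T => O.valuation (b.det (u ∘ T))
  obtain ⟨T, -, hT⟩ := Finset.exists_max_image Finset.univ f
    ⟨fun j => (1, j), Finset.mem_univ _⟩
  have hne : b.det (u ∘ T) ≠ 0 := by
    intro h0
    have h1 := hT (fun j => (1, j)) (Finset.mem_univ _)
    have e : u ∘ (fun j => ((1 : G), j)) = b := funext fun j => by simp [u]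
    simp [f, h0, e, b.det_self] at h1
  have hbas := (b.is_basis_iff_det).2 (isUnit_iff_ne_zero.2 hne)
  let e : Basis (Fin d) ℂ W := Basis.mk hbas.1 hbas.2.ge
  have he : ∀ j, e j = u (T j) := fun j => by simp [e, Basis.mk_apply]
  have hcoord : ∀ t i, e.repr (u t) i ∈ O := by
    intro t i
    have hupd : b.det (Function.update (u ∘ T) i (u t)) =
        e.repr (u t) i * b.det (u ∘ T) := by
      conv_lhs => rw [← e.sum_repr (u t)]
      rw [AlternatingMap.map_update_sum]
      rw [Finset.sum_eq_single i]
      · rw [AlternatingMap.map_update_smul, smul_eq_mul, he,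
          show u (T i) = (u ∘ T) i from rfl, Function.update_eq_self]
      · intro k _ hk
        rw [AlternatingMap.map_update_smul, he, show u (T k) = (u ∘ T) k from rfl,
          AlternatingMap.map_update_self _ _ hk.symm, smul_zero]
      · exact fun h => absurd (Finset.mem_univ i) h
    have h1 := hT (Function.update T i t) (Finset.mem_univ _)
    simp only [f, Function.comp_update, hupd, map_mul] at h1
    rw [← O.valuation_le_one_iff]
    exact le_of_mul_le_mul_right (by simpa using h1)
      (zero_lt_iff.2 ((Valuation.ne_zero_iff _).2 hne))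
  refine ⟨e, fun g i j => ?_⟩
  have : ρ g (e j) = u (g * (T j).1, (T j).2) := by
    rw [he]
    simp [u, map_mul]
  rw [this]
  exact hcoord _ i

variable {p : ℕ} [Fact p.Prime] (P : Sylow p G)

/-- A non-zero vector fixed by the normalizer with zero sum over the group forces the dimension
to be at least the order of the trivial intersection Sylow subgroup. -/
theorem card_le_finrank
    (hTI : ∀ g : G, g ∉ normalizer ((P : Subgroup G) : Set G) →
      (P : Subgroup G) ⊓ (MulAut.conj g • (P : Subgroup G)) = ⊥)
    (hinv : ρ.invariants = ⊥) (v : W) (hv0 : v ≠ 0)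
    (hv : ∀ g ∈ normalizer ((P : Subgroup G) : Set G), ρ g v = v) :
    Nat.card (P : Subgroup G) ≤ finrank ℂ W := by
  haveI := Fintype.ofFinite G
  have hp : p.Prime := Fact.out
  set N := normalizer ((P : Subgroup G) : Set G) with hNdef
  obtain ⟨O, hO⟩ := exists_valuationSubring p hp
  obtain ⟨e, he⟩ := exists_integral_basis ρ O
  have hne : Nonempty (Fin (finrank ℂ W)) := by
    by_contra h
    rw [not_nonempty_iff] at h
    exact hv0 (e.ext_elem fun i => h.elim i)
  obtain ⟨i₀, -, hi₀⟩ := Finset.exists_max_image Finset.univ (fun i => O.valuation (e.repr v i))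
    Finset.univ_nonempty
  have hc : e.repr v i₀ ≠ 0 := by
    intro h0
    refine hv0 (e.ext_elem fun i => ?_)
    have := hi₀ i (Finset.mem_univ _)
    simpa [h0] using this
  -- the scaled vector
  set w : W := (e.repr v i₀)⁻¹ • v with hw
  have hwO : ∀ i, e.repr w i ∈ O := fun i => by
    rw [← O.valuation_le_one_iff, hw, map_smul, Finsupp.smul_apply, smul_eq_mul, map_mul, map_inv₀,
      inv_mul_le_one₀ (zero_lt_iff.2 ((Valuation.ne_zero_iff _).2 hc))]
    exact hi₀ i (Finset.mem_univ _)
  have hw1 : e.repr w i₀ = 1 := by simp [hw, inv_mul_cancel₀ hc]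
  have hwN : ∀ g ∈ N, ρ g w = w := fun g hg => by rw [hw, map_smul, hv g hg]
  -- the orbit map on cosets
  let F : G ⧸ N → W := Quotient.lift (fun g => ρ g w) fun a b hab => by
    have hab' : a⁻¹ * b ∈ N := QuotientGroup.leftRel_apply.1 hab
    show ρ a w = ρ b w
    rw [show b = a * (a⁻¹ * b) by group, map_mul, Module.End.mul_apply, hwN _ hab']
  have hF : ∀ g : G, F g = ρ g w := fun g => rfl
  have hFsmul : ∀ (g : G) (c : G ⧸ N), F (g • c) = ρ g (F c) := by
    intro g c
    induction c using QuotientGroup.induction_on with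
    | _ h => rw [MulAction.Quotient.smul_coe, hF, hF, smul_eq_mul, map_mul, Module.End.mul_apply]
  have hsum : ∑ c : G ⧸ N, F c = 0 := by
    have hmem : ∑ c : G ⧸ N, F c ∈ ρ.invariants := fun g => by
      rw [map_sum]
      exact Fintype.sum_equiv (MulAction.toPerm g) _ _ fun c => (hFsmul g c).symm
    rwa [hinv, Submodule.mem_bot] at hmem
  -- free action away from the base point
  have hfree : ∀ (x : (P : Subgroup G)) (c : G ⧸ N), c ≠ ((1 : G) : G ⧸ N) →
      (x : G) • c = c → x = 1 := by
    intro x c
    induction c using QuotientGroup.induction_on with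
    | _ g =>
      intro hg hx
      rw [MulAction.Quotient.smul_coe, smul_eq_mul, eq_comm, QuotientGroup.eq] at hx
      have hgN : g ∉ N := fun h => hg (QuotientGroup.eq.2 (by simpa using N.inv_mem h))
      have hQ : IsPGroup p ((MulAut.conj g⁻¹ • (P : Subgroup G) : Subgroup G)) :=
        P.2.map _
      have hmem : g⁻¹ * (x : G) * g ∈ (MulAut.conj g⁻¹ • (P : Subgroup G) : Subgroup G) ⊓ N := by
        refine ⟨?_, by simpa [mul_assoc] using hx⟩
        exact ⟨x, x.2, by simp [MulAut.conj_apply]⟩
      have hmem' := (hQ.inf_normalizer_sylow P).le hmem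
      have h2 : (x : G) ∈ (P : Subgroup G) ⊓ (MulAut.conj g • (P : Subgroup G)) :=
        ⟨x.2, g⁻¹ * x * g, hmem'.2, by simp [MulAut.conj_apply, mul_assoc]⟩
      rw [hTI g hgN, mem_bot] at h2
      exact Subtype.ext h2
  let S : Type _ := {c : G ⧸ N // c ≠ ((1 : G) : G ⧸ N)}
  have hbase : ∀ x : (P : Subgroup G), (x : G) • ((1 : G) : G ⧸ N) = ((1 : G) : G ⧸ N) := fun x => by
    rw [MulAction.Quotient.smul_coe, smul_eq_mul, mul_one, QuotientGroup.eq, mul_one]
    exact N.inv_mem (Subgroup.le_normalizer x.2)
  letI : MulAction (P : Subgroup G) S :=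
    { smul := fun x c => ⟨(x : G) • c.1, fun h => c.2 (by
        rw [← inv_smul_smul (x : G) c.1, h]
        exact hbase x⁻¹)⟩
      one_smul := fun c => Subtype.ext (one_smul G c.1)
      mul_smul := fun x y c => Subtype.ext (mul_smul (x : G) (y : G) c.1) }
  have hsmul : ∀ (x : (P : Subgroup G)) (c : S), (x • c).1 = (x : G) • c.1 := fun _ _ => rfl
  let Or := MulAction.orbitRel.Quotient (P : Subgroup G) S
  let Ψ : ↥(P : Subgroup G) × Or → S := fun t => t.1 • t.2.out
  have hΨ : Function.Bijective Ψ := by
    constructor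
    · rintro ⟨x, a⟩ ⟨y, b⟩ h
      have h' : x • a.out = y • b.out := h
      have hab : a = b := by
        rw [← Quotient.out_eq a, ← Quotient.out_eq b]
        refine Quotient.sound (MulAction.orbitRel_apply.2 ⟨x⁻¹ * y, ?_⟩)
        show (x⁻¹ * y) • b.out = a.out
        rw [mul_smul, ← h', inv_smul_smul]
      subst hab
      have h1 : (y⁻¹ * x) • a.out = a.out := by rw [mul_smul, h', inv_smul_smul]
      have h2 := hfree _ _ a.out.2 (congrArg Subtype.val h1)
      rw [inv_mul_eq_one] at h2
      rw [h2]
    · intro s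
      let a : Or := Quotient.mk'' s
      obtain ⟨x, hx⟩ := MulAction.orbitRel_apply.1 (Quotient.exact (Quotient.out_eq a))
      refine ⟨(x⁻¹, a), ?_⟩
      show x⁻¹ • a.out = s
      rw [← hx]
      exact inv_smul_smul x s
  set y : W := ∑ a : Or, F a.out.1 with hy
  have hwy : w = -∑ x : (P : Subgroup G), ρ (x : G) y := by
    have h1 : ∑ c : S, F c.1 = ∑ x : (P : Subgroup G), ρ (x : G) y := by
      rw [← Fintype.sum_bijective Ψ hΨ _ _ (fun _ => rfl), Fintype.sum_prod_type]
      refine Finset.sum_congr rfl fun x _ => ?_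
      rw [hy, map_sum]
      exact Finset.sum_congr rfl fun a _ => by rw [hsmul, hFsmul]
    have h2 := Fintype.sum_eq_add_sum_subtype_ne F ((1 : G) : G ⧸ N)
    rw [hsum, h1, hF, map_one, Module.End.one_apply] at h2
    exact eq_neg_of_add_eq_zero_left h2.symm
  -- integrality
  have hstab : ∀ (g : G) (z : W), (∀ i, e.repr z i ∈ O) → ∀ i, e.repr (ρ g z) i ∈ O := by
    intro g z hz i
    rw [← e.sum_repr z, map_sum, map_sum, Finsupp.finsetSum_apply]
    refine sum_mem fun j _ => ?_
    rw [map_smul, map_smul, Finsupp.smul_apply, smul_eq_mul]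
    exact mul_mem (hz j) (he g i j)
  have hyO : ∀ i, e.repr y i ∈ O := by
    intro i
    rw [hy, map_sum, Finsupp.finsetSum_apply]
    refine sum_mem fun a _ => ?_
    induction a.out.1 using QuotientGroup.induction_on with
    | _ g => exact hstab g w hwO i
  -- reduction
  let k := IsLocalRing.ResidueField O
  haveI : CharP k p := by
    rw [CharP.charP_iff_prime_eq_zero hp]
    obtain ⟨⟨a, ha⟩, ham, hap⟩ : (p : ℂ) ∈ ((↑) : O → ℂ) '' IsLocalRing.maximalIdeal O := by
      rw [O.image_maximalIdeal]; exact hO
    have e0 : (p : k) = IsLocalRing.residue O (p : O) := (map_natCast _ p).symm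
    rw [e0, IsLocalRing.residue_eq_zero_iff]
    have e1 : (p : O) = ⟨a, ha⟩ :=
      Subtype.ext ((map_natCast O.subtype p).trans hap.symm)
    rw [e1]
    exact ham
  let red := IsLocalRing.residue O
  let Y : G → Fin (finrank ℂ W) → O := fun g i => ⟨e.repr (ρ g y) i, hstab g y hyO i⟩
  let M : G → Matrix (Fin (finrank ℂ W)) (Fin (finrank ℂ W)) O :=
    fun g i j => ⟨e.repr (ρ g (e j)) i, he g i j⟩
  have hM : ∀ g h i, Y (g * h) i = ∑ j, M g i j * Y h j := by
    intro g h i
    refine Subtype.ext ?_
    push_cast
    show e.repr (ρ (g * h) y) i = ∑ j, e.repr (ρ g (e j)) i * e.repr (ρ h y) j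
    rw [map_mul, Module.End.mul_apply]
    conv_lhs => rw [← e.sum_repr (ρ h y)]
    rw [map_sum, map_sum, Finsupp.finsetSum_apply]
    exact Finset.sum_congr rfl fun j _ => by
      rw [map_smul, map_smul, Finsupp.smul_apply, smul_eq_mul, mul_comm]
  let Φ : (↥(P : Subgroup G) → k) →ₗ[k] (Fin (finrank ℂ W) → k) :=
    ∑ x : (P : Subgroup G), (LinearMap.proj x).smulRight (fun i => red (Y (x : G) i))
  have hΦ : ∀ f i, Φ f i = ∑ x : (P : Subgroup G), f x * red (Y (x : G) i) := by
    intro f i
    simp [Φ, LinearMap.smulRight_apply]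
  have hinj : LinearMap.ker Φ = ⊥ := by
    by_contra hK
    let σ : Representation k ↥(P : Subgroup G) (↥(P : Subgroup G) → k) :=
      Cfsg.permRep k (P : Subgroup G) (P : Subgroup G)
    obtain ⟨f, hf, hf0, hfix⟩ := Cfsg.Agent.PermLib.exists_fixed_vector P.2 σ (LinearMap.ker Φ)
      (by
        intro x f hf
        rw [LinearMap.mem_ker] at hf ⊢
        funext i
        rw [hΦ, Pi.zero_apply]
        have h1 : ∀ j, ∑ z : (P : Subgroup G), f z * red (Y (z : G) j) = 0 := fun j => by
          rw [← hΦ, hf]; rfl
        calc ∑ z : (P : Subgroup G), σ x f z * red (Y (z : G) i)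
            = ∑ z : (P : Subgroup G), f z * red (Y ((x : G) * (z : G)) i) :=
              (Fintype.sum_equiv (Equiv.mulLeft x) _ _ fun z => by
                rw [Equiv.coe_mulLeft]
                show _ = σ x f (x * z) * _
                rw [show σ x f (x * z) = f (x⁻¹ • (x * z)) from rfl, smul_eq_mul,
                  inv_mul_cancel_left]
                rfl).symm
          _ = ∑ j, red (M (x : G) i j) *
                ∑ z : (P : Subgroup G), f z * red (Y (z : G) j) := by
              simp only [hM, map_sum, map_mul]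
              simp only [Finset.mul_sum]
              rw [Finset.sum_comm]
              refine Finset.sum_congr rfl fun z _ => ?_
              rw [Finset.mul_sum]
              exact Finset.sum_congr rfl fun j _ => by ring
          _ = 0 := by simp [h1])
      hK
    have hconst : ∀ z, f z = f 1 := fun z => by
      conv_lhs => rw [← hfix z]
      show f (z⁻¹ • z) = f 1
      rw [smul_eq_mul, inv_mul_cancel]
    have hf1 : f 1 ≠ 0 := fun h => hf0 (funext fun z => by rw [hconst z, h]; rfl)
    have h0 : Φ f i₀ = 0 := by rw [LinearMap.mem_ker.1 hf]; rfl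
    have hs : (∑ x : (P : Subgroup G), Y (x : G) i₀) = -1 := by
      refine Subtype.ext ?_
      push_cast
      show ∑ x : (P : Subgroup G), e.repr (ρ (x : G) y) i₀ = -1
      rw [← hw1, hwy, map_neg, map_sum, Finsupp.neg_apply, Finsupp.finsetSum_apply, neg_neg]
    rw [hΦ] at h0
    simp only [hconst, ← Finset.mul_sum, ← map_sum, hs, map_neg, map_one] at h0
    simp [hf1] at h0
  have h := LinearMap.finrank_le_finrank_of_injective (LinearMap.ker_eq_bot.1 hinj)
  rwa [Module.finrank_fintype_fun_eq_card, Module.finrank_fintype_fun_eq_card,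
    ← Nat.card_eq_fintype_card, Fintype.card_fin] at h

/-- In dimension at most `|P|` and with a non-zero fixed vector, an overgroup of the normalizer
has the same fixed vectors as the whole group. -/
theorem invariants_eq [Fintype G]
    (hTI : ∀ g : G, g ∉ normalizer ((P : Subgroup G) : Set G) →
      (P : Subgroup G) ⊓ (MulAut.conj g • (P : Subgroup G)) = ⊥)
    (hdim : finrank ℂ W ≤ Nat.card (P : Subgroup G)) (hpos : ρ.invariants ≠ ⊥)
    (v : W) (hv : ∀ g ∈ normalizer ((P : Subgroup G) : Set G), ρ g v = v) :
    v ∈ ρ.invariants := by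
  haveI : Invertible (Fintype.card G : ℂ) :=
    invertibleOfNonzero (Nat.cast_ne_zero.2 Fintype.card_ne_zero)
  let K := LinearMap.ker ρ.averageMap
  have hcomm : ∀ g x, ρ.averageMap (ρ g x) = ρ.averageMap x := by
    intro g x
    rw [Representation.averageMap, ← Representation.asAlgebraHom_single_one,
      ← Module.End.mul_apply, ← map_mul, GroupAlgebra.mul_average_right]
  let τ : Representation ℂ G K :=
    { toFun := fun g => (ρ g).restrict fun x (hx : x ∈ K) => by
        rw [LinearMap.mem_ker] at hx ⊢
        rw [hcomm, hx]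
      map_one' := LinearMap.ext fun x => Subtype.ext (by simp)
      map_mul' := fun a b => LinearMap.ext fun x => Subtype.ext (by simp) }
  have hP := Representation.isProj_averageMap ρ
  let v' : K := ⟨v - ρ.averageMap v, by
    rw [LinearMap.mem_ker, map_sub, hP.map_id _ (hP.map_mem v), sub_self]⟩
  have hτ : τ.invariants = ⊥ := by
    rw [eq_bot_iff]
    intro x hx
    have hx' : (x : W) ∈ ρ.invariants := fun g => congrArg Subtype.val (hx g)
    have h0 := LinearMap.mem_ker.1 x.2
    rw [hP.map_id _ hx'] at h0
    simpa using h0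
  by_contra hvn
  have hv'0 : v' ≠ 0 := fun h => hvn (by
    have h' : v - ρ.averageMap v = 0 := congrArg Subtype.val h
    rw [sub_eq_zero] at h'
    rw [h']
    exact hP.map_mem v)
  have hle := card_le_finrank τ P hTI hτ v' hv'0 fun g hg => Subtype.ext (by
    show ρ g (v - ρ.averageMap v) = v - ρ.averageMap v
    rw [map_sub, hv g hg, hP.map_mem v g])
  have hlt : finrank ℂ K < finrank ℂ W := by
    refine Submodule.finrank_lt fun h => hpos ?_
    rw [eq_bot_iff]
    intro x hx
    have hxK : x ∈ K := h ▸ Submodule.mem_top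
    rw [LinearMap.mem_ker, hP.map_id _ hx] at hxK
    simpa using hxK
  omega

end Cfsg.Agent.Char8TI
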